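import Mathlib
import Cfsg.Agent.H584.NC.Basic

/-!
# From the almost simple group to the simple group (S4386)

`AS.loc` : the socle `S` of an almost simple group whose proper supplements of `S` are 2-nilpotent satisfies `Loc S`.
-/

set_option autoImplicit false

namespace Cfsg.Agent.H584.NC

open Subgroup

universe u v

/-- If a group is 2-nilpotent with odd part centralizing `Y` and a Sylow 2-subgroup normalizing it, it normalizes `Y`. -/
theorem NC.le_of {G : Type u} [Group G] [Finite G] (h : NC G) (R : Sylow 2 G) {L : Subgroup G} (hR : (R : Subgroup G) ≤ L)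
    (hodd : ∀ x : G, ¬ 2 ∣ orderOf x → x ∈ L) : L = ⊤ := by
  obtain ⟨N, hN, hc, hp⟩ := NC_iff.1 h
  have hNL : N ≤ L := by
    intro x hx
    apply hodd
    rw [← Nat.Prime.coprime_iff_not_dvd Nat.prime_two, Nat.coprime_comm,
      ← Transfer.NormalPComplement.mem_iff_coprime_orderOf' N hc hp]
    exact hx
  rw [← index_eq_one]
  have h1 : L.index ∣ N.index := index_dvd_of_le hNL
  have h2 : L.index ∣ (R : Subgroup G).index := index_dvd_of_le hR
  obtain ⟨k, hk⟩ := IsPGroup.iff_card.1 hp
  have h3 : N.index = 2 ^ k := hk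
  have h4 : ¬ 2 ∣ (R : Subgroup G).index := R.not_dvd_index
  rw [h3] at h1
  obtain ⟨j, -, hj⟩ := (Nat.dvd_prime_pow Nat.prime_two).1 h1
  rcases j with _ | j
  · exact hj
  · exfalso
    apply h4
    exact (hj ▸ dvd_pow_self 2 (Nat.succ_ne_zero j)).trans h2

namespace AS

variable {A : Type u} [Group A] [Finite A] {S : Subgroup A}

theorem norm_ne_top (h : AS S) {H : Subgroup A} (hHS : H ≤ S) (h1 : H ≠ ⊥) (h2 : H ≠ S) :
    normalizer (H : Set A) ≠ ⊤ := by
  intro htop
  have hn : H.Normal := normalizer_eq_top_iff.1 htop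
  have h3 : (H.subgroupOf S).Normal := hn.subgroupOf S
  have := h.simple
  rcases h3.eq_bot_or_eq_top with h4 | h4
  · rw [subgroupOf_eq_bot, disjoint_iff, inf_eq_left.2 hHS] at h4
    exact h1 h4
  · exact h2 (le_antisymm hHS (subgroupOf_eq_top.1 h4))

theorem npc_norm (h : AS S) {H : Subgroup A} (hHS : H ≤ S) (h1 : H ≠ ⊥) (h2 : H ≠ S)
    (hsup : S ⊔ normalizer (H : Set A) = ⊤) : NC (normalizer (H : Set A)) :=
  h.npc _ (h.norm_ne_top hHS h1 h2) hsup

/-- the normalizer in `S` -/
theorem nc_of_map {H : Subgroup S} (h : NC (normalizer ((H.map S.subtype : Subgroup A) : Set A))) :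
    NC (normalizer (H : Set S)) := by
  let f : normalizer (H : Set S) →* normalizer ((H.map S.subtype : Subgroup A) : Set A) :=
    (S.subtype.comp (normalizer (H : Set S)).subtype).codRestrict _ (by
      rintro ⟨x, hx⟩
      rw [mem_normalizer_iff] at hx ⊢
      intro y
      constructor
      · rintro ⟨z, hz, rfl⟩
        exact ⟨x * z * x⁻¹, (hx z).1 hz, by simp⟩
      · rintro ⟨z, hz, hzy⟩
        have h1 : y = x⁻¹ * z * x := by
          have h2 : (z : A) = x * y * (x : A)⁻¹ := hzy
          rw [h2]; simp [mul_assoc]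
        have h2 : x⁻¹ * z * x ∈ H := by
          rw [hx]
          have : x * (x⁻¹ * z * x) * x⁻¹ = z := by group
          rw [this]; exact hz
        exact ⟨x⁻¹ * z * x, h2, by rw [h1]; simp⟩)
  refine NC.of_injective f ?_ h
  intro a b hab
  have h1 : (f a : A) = (f b : A) := congrArg Subtype.val hab
  exact Subtype.ext (Subtype.ext h1)

theorem mem_normalizer_map {H : Subgroup S} (hS : S.Normal) {a : A}
    (ha : H.map (MulAut.conjNormal (H := S) a).toMonoidHom = H) :
    a ∈ normalizer ((H.map S.subtype : Subgroup A) : Set A) := by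
  rw [mem_normalizer_iff]
  intro y
  constructor
  · rintro ⟨z, hz, rfl⟩
    refine ⟨MulAut.conjNormal a z, ?_, ?_⟩
    · have : MulAut.conjNormal a z ∈ H.map (MulAut.conjNormal (H := S) a).toMonoidHom := mem_map_of_mem _ hz
      rwa [ha] at this
    · exact MulAut.conjNormal_apply a z
  · rintro ⟨z, hz, hzy⟩
    have hz' : z ∈ H.map (MulAut.conjNormal (H := S) a).toMonoidHom := by rw [ha]; exact hz
    obtain ⟨w, hw, rfl⟩ := hz'
    refine ⟨w, hw, ?_⟩
    have h1 : ((MulAut.conjNormal a w : S) : A) = a * w * a⁻¹ := MulAut.conjNormal_apply a w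
    have h2 : a * w * a⁻¹ = a * y * a⁻¹ := by rw [← h1]; exact hzy
    exact mul_left_cancel (mul_right_cancel h2)

theorem star (h : AS S) (H : Subgroup S) (hH : H ≠ ⊤)
    (hcl : ∀ α : MulAut S, ∃ s : S, H.map α.toMonoidHom = H.map (MulAut.conj s).toMonoidHom) : NC H := by
  by_cases hbot : H = ⊥
  · subst hbot
    exact NC_of_odd (by rw [Subgroup.card_bot]; decide)
  have hn := h.normal
  have hsup : S ⊔ normalizer ((H.map S.subtype : Subgroup A) : Set A) = ⊤ := by
    rw [eq_top_iff]
    intro a _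
    obtain ⟨s, hs⟩ := hcl (MulAut.conjNormal a)
    have h1 : H.map (MulAut.conjNormal (H := S) ((s : A)⁻¹ * a)).toMonoidHom = H := by
      have e1 : (MulAut.conjNormal (H := S) ((s : A)⁻¹ * a)).toMonoidHom =
          (MulAut.conj s⁻¹).toMonoidHom.comp (MulAut.conjNormal (H := S) a).toMonoidHom := by
        ext x
        simp [MulAut.conjNormal_apply, mul_assoc]
      have e2 : (MulAut.conj s⁻¹).toMonoidHom.comp (MulAut.conj s).toMonoidHom = MonoidHom.id S := by
        ext x; simp [mul_assoc]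
      rw [e1, ← Subgroup.map_map, hs, Subgroup.map_map, e2, Subgroup.map_id]
    have h2 := mem_normalizer_map hn h1
    have h3 : a = s * ((s : A)⁻¹ * a) := by group
    rw [h3]
    exact mul_mem_sup s.2 h2
  have h1 : H.map S.subtype ≠ ⊥ := by
    rwa [Ne, map_eq_bot_iff_of_injective _ (Subgroup.subtype_injective _)]
  have h2 : H.map S.subtype ≠ S := by
    intro h3
    apply hH
    rw [eq_top_iff]
    intro x _
    have h4 : (x : A) ∈ H.map S.subtype := by rw [h3]; exact x.2
    obtain ⟨y, hy, hyx⟩ := h4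
    have : y = x := Subtype.ext hyx
    exact this ▸ hy
  exact (nc_of_map (h.npc_norm (map_subtype_le H) h1 h2 hsup)).to_le le_normalizer

theorem locAt (h : AS S) (Q : Sylow 2 S) : ∃ T : Subgroup (MulAut S), LocAt Q T := by
  have hn := h.normal
  set Q' : Subgroup A := (Q : Subgroup S).map S.subtype with hQ'
  have hQ'S : Q' ≤ S := map_subtype_le _
  have hQbot : (Q : Subgroup S) ≠ ⊥ := by
    intro h1
    have h2 : 2 ∣ Nat.card (Q : Subgroup S) := Q.dvd_card_of_dvd_card (two_dvd_of_nonsol h.nonsol)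
    rw [h1, Subgroup.card_bot] at h2
    omega
  have hQ'bot : Q' ≠ ⊥ := by
    rwa [hQ', Ne, map_eq_bot_iff_of_injective _ (Subgroup.subtype_injective _)]
  have hQ'p : IsPGroup 2 Q' := Q.isPGroup'.map _
  have hne : ∀ {Y : Subgroup A}, IsPGroup 2 Y → Y ≠ S := by
    rintro Y hY rfl
    apply h.nonsol
    have := hY.isNilpotent
    infer_instance
  set N0 : Subgroup A := normalizer (Q' : Set A) with hN0
  have hfr : S ⊔ N0 = ⊤ := by
    rw [sup_comm]
    exact Sylow.normalizer_sup_eq_top Q
  have hnc : NC N0 := h.npc_norm hQ'S hQ'bot (hne hQ'p) hfr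
  have hQ'N : Q' ≤ N0 := le_normalizer
  have hp : IsPGroup 2 (Q'.subgroupOf N0) := hQ'p.comap_of_injective N0.subtype (Subgroup.subtype_injective _)
  obtain ⟨R, hR⟩ := hp.exists_le_sylow
  refine ⟨((R : Subgroup N0).map N0.subtype).map (MulAut.conjNormal (H := S)), ?_⟩
  refine ⟨(R.isPGroup'.map _).map _, ?_, ?_, ?_⟩
  · intro x hx
    refine ⟨(x : A), ?_, ?_⟩
    · have h1 : (x : A) ∈ Q' := ⟨x, hx, rfl⟩
      refine ⟨⟨x, hQ'N h1⟩, hR ?_, rfl⟩
      rw [mem_subgroupOf]
      exact h1
    · exact MulAut.conjNormal_val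
  · rintro _ ⟨_, ⟨t, ht, rfl⟩, rfl⟩
    have ht' : (t : A) ∈ normalizer (Q' : Set A) := t.2
    rw [mem_normalizer_iff] at ht'
    apply le_antisymm
    · rintro _ ⟨x, hx, rfl⟩
      obtain ⟨y, hy, hyx⟩ := (ht' x).1 ⟨x, hx, rfl⟩
      have : y = MulAut.conjNormal (t : A) x := Subtype.ext (by rw [MulAut.conjNormal_apply]; exact hyx)
      exact this ▸ hy
    · intro x hx
      obtain ⟨y, hy, hyx⟩ := (mem_normalizer_iff.1 (inv_mem t.2) x).1 ⟨x, hx, rfl⟩
      refine ⟨y, hy, ?_⟩
      apply Subtype.ext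
      change ((MulAut.conjNormal (t : A) y : S) : A) = x
      rw [MulAut.conjNormal_apply]
      have h1 : (y : A) = (t : A)⁻¹ * x * (t : A)⁻¹⁻¹ := hyx
      rw [h1]; simp [mul_assoc]
  · intro Y hYQ hY hinv
    have hYA : Y.map S.subtype ≠ ⊥ := by
      rwa [Ne, map_eq_bot_iff_of_injective _ (Subgroup.subtype_injective _)]
    have hYQ' : Y.map S.subtype ≤ Q' := map_mono hYQ
    have hYp : IsPGroup 2 (Y.map S.subtype : Subgroup A) := hQ'p.to_le hYQ'
    -- `N0` normalizes `Y`
    have hL : (normalizer ((Y.map S.subtype : Subgroup A) : Set A)).subgroupOf N0 = ⊤ := by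
      refine hnc.le_of R ?_ ?_
      · intro t ht
        rw [mem_subgroupOf]
        exact mem_normalizer_map hn (hinv _ ⟨(t : A), ⟨t, ht, rfl⟩, rfl⟩)
      · intro x hx
        have hxQ : ∀ y ∈ Q', (x : A) * y * (x : A)⁻¹ ∈ Q' := fun y hy => (mem_normalizer_iff.1 x.2 y).1 hy
        have hx' : ¬ 2 ∣ orderOf (x : A) := by rwa [Subgroup.orderOf_coe]
        rw [mem_subgroupOf, mem_normalizer_iff]
        have hc : ∀ y ∈ Y.map S.subtype, (x : A) * y = y * x := fun y hy =>
          hnc.comm' hQ'N hQ'p x.2 hx' hxQ (hYQ' hy)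
        intro y
        constructor
        · intro hy
          rw [hc y hy, mul_inv_cancel_right]
          exact hy
        · intro hy
          have h1 := hc _ hy
          have h2 : (x : A) * y * (x : A)⁻¹ = y := by
            have h3 : (x : A) * ((x : A) * y * (x : A)⁻¹) * (x : A)⁻¹ = (x : A) * y * (x : A)⁻¹ := by
              rw [h1]; group
            have h4 : (x : A) * ((x : A) * y * (x : A)⁻¹) = (x : A) * y := mul_right_cancel h3
            exact mul_left_cancel h4
          rw [h2] at hy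
          exact hy
    rw [subgroupOf_eq_top] at hL
    refine nc_of_map (h.npc_norm (map_subtype_le Y) hYA (hne hYp) ?_)
    exact top_le_iff.1 (hfr ▸ sup_le_sup_left hL S)

/-- **The consequences for the simple group.** -/
theorem toLoc (h : AS S) : Loc S where
  simple := h.simple
  nonsol := h.nonsol
  loc := by
    obtain ⟨T, hT⟩ := h.locAt default
    exact ⟨default, T, hT⟩
  star := h.star

end AS

end Cfsg.Agent.H584.NC
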