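import Mathlib
import Cfsg.Agent.H584.NC.Comp
import Cfsg.Agent.H584.NC.AS

/-!
# The components satisfy `Loc` (S4386)

`Cmp.loc` : if every proper supplement of `N` is 2-nilpotent, the components of `N` satisfy `Loc`.
-/

set_option autoImplicit false

namespace Cfsg.Agent.H584.NC

open Subgroup

universe u v

variable {X : Type u} [Group X] {N : Subgroup X} {C : Set (Subgroup X)} {T : Subgroup X}

theorem normal_cent (T : Subgroup X) : ((centralizer (T : Set X)).subgroupOf (normalizer (T : Set X))).Normal := by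
  constructor
  rintro ⟨n, hn⟩ hnc ⟨g, hg⟩
  rw [mem_subgroupOf] at hnc ⊢
  change n ∈ centralizer (T : Set X) at hnc
  change g * n * g⁻¹ ∈ centralizer (T : Set X)
  rw [Subgroup.mem_centralizer_iff] at hnc ⊢
  intro y hy
  have h1 : g⁻¹ * y * g ∈ T := by
    have h2 := (mem_normalizer_iff.1 (inv_mem hg) y).1 hy
    rwa [inv_inv] at h2
  have h2 := hnc _ h1
  calc y * (g * n * g⁻¹) = g * ((g⁻¹ * y * g) * n) * g⁻¹ := by group
    _ = g * (n * (g⁻¹ * y * g)) * g⁻¹ := by rw [h2]
    _ = g * n * g⁻¹ * y := by group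

theorem cent_le_norm (T : Subgroup X) : centralizer (T : Set X) ≤ normalizer (T : Set X) := by
  intro x hx
  rw [Subgroup.mem_centralizer_iff] at hx
  rw [mem_normalizer_iff]
  intro y
  constructor
  · intro hy
    rw [← hx y hy, mul_inv_cancel_right]
    exact hy
  · intro hy
    have h1 := hx _ hy
    have h2 : x * y * x⁻¹ = y := by
      have h3 : x * (x * y * x⁻¹) = x * y := by rw [← h1]; group
      exact mul_left_cancel h3
    rwa [h2] at hy

/-- the automizer of `T` -/
abbrev Autz (T : Subgroup X) : Type u :=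
  ↥(normalizer (T : Set X)) ⧸ ((centralizer (T : Set X)).subgroupOf (normalizer (T : Set X)))

instance instGroupAutz (T : Subgroup X) : Group (Autz T) :=
  have := normal_cent T
  QuotientGroup.Quotient.group _

/-- the projection to the automizer -/
def toAutz (T : Subgroup X) : ↥(normalizer (T : Set X)) →* Autz T :=
  have := normal_cent T
  QuotientGroup.mk' _

theorem toAutz_surj (T : Subgroup X) : Function.Surjective (toAutz T) := by
  have := normal_cent T
  exact QuotientGroup.mk'_surjective _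

theorem toAutz_eq_one {T : Subgroup X} {x : ↥(normalizer (T : Set X))} :
    toAutz T x = 1 ↔ (x : X) ∈ centralizer (T : Set X) := by
  have := normal_cent T
  change QuotientGroup.mk' _ x = 1 ↔ _
  rw [← MonoidHom.mem_ker, QuotientGroup.ker_mk', mem_subgroupOf]

/-- `T` in its automizer -/
def soc (T : Subgroup X) : Subgroup (Autz T) := (T.subgroupOf (normalizer (T : Set X))).map (toAutz T)

/-- `T → soc T` -/
def toSoc (T : Subgroup X) : T →* soc T :=
  ((toAutz T).comp (Subgroup.inclusion Subgroup.le_normalizer)).codRestrict (soc T) (fun t => by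
    refine ⟨Subgroup.inclusion Subgroup.le_normalizer t, ?_, rfl⟩
    exact t.2)

theorem toSoc_surj (T : Subgroup X) : Function.Surjective (toSoc T) := by
  rintro ⟨_, x, hx, rfl⟩
  exact ⟨⟨x, hx⟩, rfl⟩

theorem Cmp.toSoc_inj (h : Cmp N C) (hT : T ∈ C) : Function.Injective (toSoc T) := by
  rw [injective_iff_map_eq_one]
  intro t ht
  have h1 : toAutz T (Subgroup.inclusion Subgroup.le_normalizer t) = 1 := congrArg Subtype.val ht
  rw [toAutz_eq_one] at h1
  apply Subtype.ext
  refine h.center T hT t t.2 fun s hs => ?_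
  exact (Subgroup.mem_centralizer_iff.1 h1 s hs).symm

/-- `T ≃* soc T` -/
noncomputable def Cmp.equivSoc (h : Cmp N C) (hT : T ∈ C) : T ≃* soc T :=
  MulEquiv.ofBijective (toSoc T) ⟨h.toSoc_inj hT, toSoc_surj T⟩

theorem Cmp.as [Finite X] (h : Cmp N C) (hT : T ∈ C) (hN : ∀ H : Subgroup X, H ≠ ⊤ → N ⊔ H = ⊤ → NC H) :
    AS (soc T) := by
  have e := h.equivSoc hT
  have hsimp := h.simple T hT
  have hnormT : (T.subgroupOf (normalizer (T : Set X))).Normal := by
    constructor
    rintro ⟨n, hn⟩ hnT ⟨g, hg⟩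
    rw [mem_subgroupOf] at hnT ⊢
    exact (mem_normalizer_iff.1 hg n).1 hnT
  have hnorm : (soc T).Normal := hnormT.map _ (toAutz_surj T)
  refine ⟨hnorm, e.symm.isSimpleGroup, ?_, ?_, ?_⟩
  · intro h1
    exact h.nonsol hT (solvable_of_solvable_injective (f := e.toMonoidHom) e.injective)
  · rw [eq_bot_iff]
    intro y hy
    obtain ⟨x, rfl⟩ := toAutz_surj T y
    rw [mem_bot, toAutz_eq_one, Subgroup.mem_centralizer_iff]
    intro t ht
    rw [Subgroup.mem_centralizer_iff] at hy
    have h1 := hy (toAutz T ⟨t, Subgroup.le_normalizer ht⟩) ⟨_, ht, rfl⟩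
    rw [← map_mul, ← map_mul] at h1
    have h2 : toAutz T (x * ⟨t, Subgroup.le_normalizer ht⟩ * x⁻¹ * (⟨t, Subgroup.le_normalizer ht⟩ : ↥(normalizer (T : Set X)))⁻¹) = 1 := by
      rw [map_mul, map_mul, map_mul] at *
      rw [← h1]
      simp
    rw [toAutz_eq_one] at h2
    have h3 : (x : X) * t * (x : X)⁻¹ * t⁻¹ = 1 := by
      refine h.center T hT _ (mul_mem ((mem_normalizer_iff.1 x.2 t).1 ht) (inv_mem ht)) fun s hs => ?_
      exact (Subgroup.mem_centralizer_iff.1 h2 s hs).symm
    have h4 : (x : X) * t = t * x := by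
      have h5 : (x : X) * t = (x * t * (x : X)⁻¹ * t⁻¹) * (t * x) := by group
      rw [h5, h3, one_mul]
    exact h4.symm
  · intro K hK hsup
    -- the preimage of `K` in `X`
    set H : Subgroup X := (K.comap (toAutz T)).map (normalizer (T : Set X)).subtype with hH
    have memH : ∀ x : ↥(normalizer (T : Set X)), (x : X) ∈ H ↔ toAutz T x ∈ K := by
      intro x
      constructor
      · rintro ⟨y, hy, hyx⟩
        have : y = x := Subtype.ext hyx
        exact this ▸ hy
      · intro hx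
        exact ⟨x, hx, rfl⟩
    have hHL : H ≤ normalizer (T : Set X) := map_subtype_le _
    have hCH : centralizer (T : Set X) ≤ H := by
      intro x hx
      refine (memH ⟨x, cent_le_norm T hx⟩).2 ?_
      rw [toAutz_eq_one.2 hx]
      exact one_mem _
    have hTH : ∀ l ∈ normalizer (T : Set X), ∃ t ∈ T, ∃ x ∈ H, l = t * x := by
      intro l hl
      have h1 : toAutz T ⟨l, hl⟩ ∈ soc T ⊔ K := hsup ▸ mem_top _
      rw [mem_sup_of_normal_left] at h1
      obtain ⟨_, ⟨t, ht, rfl⟩, k, hk, h2⟩ := h1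
      refine ⟨t, ht, (t : X)⁻¹ * l, ?_, by group⟩
      refine (memH (t⁻¹ * ⟨l, hl⟩)).2 ?_
      rw [map_mul, map_inv, ← h2, inv_mul_cancel_left]
      exact hk
    have hne : ¬ T ≤ H := by
      intro h1
      apply hK
      rw [← hsup]
      refine (sup_eq_right.2 ?_).symm
      rintro _ ⟨t, ht, rfl⟩
      exact (memH t).1 (h1 ht)
    obtain ⟨M, hM, hNM, hMH⟩ := h.exists_supplement hT hHL hCH hTH hne
    have h1 : NC ↥(M ⊓ H) := (hN M hM hNM).to_le inf_le_left
    let f : ↥(M ⊓ H) →* K :=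
      ((toAutz T).comp (Subgroup.inclusion (inf_le_right.trans hHL))).codRestrict K (fun x =>
        (memH (Subgroup.inclusion (inf_le_right.trans hHL) x)).1 x.2.2)
    refine NC.of_surjective f ?_ h1
    rintro ⟨y, hy⟩
    obtain ⟨x, rfl⟩ := toAutz_surj T y
    obtain ⟨c, hc, hcx⟩ := hMH x ((memH x).2 hy)
    have hcH : c * x ∈ H := mul_mem (hCH hc) ((memH x).2 hy)
    refine ⟨⟨c * x, hcx, hcH⟩, ?_⟩
    apply Subtype.ext
    change toAutz T ⟨c * x, _⟩ = toAutz T x
    have h2 : (⟨c * x, hHL hcH⟩ : ↥(normalizer (T : Set X))) = ⟨c, cent_le_norm T hc⟩ * x := rfl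
    rw [h2, map_mul, toAutz_eq_one.2 hc, one_mul]

theorem IsL2.congr {S : Type u} {S' : Type v} [Group S] [Group S'] (e : S ≃* S') (h : IsL2 S) : IsL2 S' := by
  obtain ⟨F, i1, i2, hF, ⟨f⟩⟩ := h
  exact ⟨F, i1, i2, hF, ⟨e.symm.trans f⟩⟩

/-- **The components.** -/
theorem Cmp.isL2 [Finite X] (h : Cmp N C) (hN : ∀ H : Subgroup X, H ≠ ⊤ → N ⊔ H = ⊤ → NC H)
    (hmain : ∀ (S : Type u) [Group S] [Finite S], Loc S → IsL2 S) (hT : T ∈ C) : IsL2 T :=
  (hmain _ (h.as hT hN).toLoc).congr (h.equivSoc hT).symm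

end Cfsg.Agent.H584.NC
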