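import Mathlib
import Cfsg.Agent.H584.NC.Comp

/-!
# The quotient by the minimal normal subgroup is a 2-group (S4386)
-/

set_option autoImplicit false

namespace Cfsg.Agent.H584.NC

open Subgroup

universe u v

variable {X : Type u} [Group X] {N : Subgroup X} {C : Set (Subgroup X)} {T : Subgroup X}

theorem exists_inner [Finite X] (hout : ∀ α : MulAut T, ∃ (k : ℕ) (s : T), α ^ (2 ^ k) = MulAut.conj s) {x : X}
    (hx : ¬ 2 ∣ orderOf x) (hxT : x ∈ normalizer (T : Set X)) : ∃ s ∈ T, ∀ t ∈ T, x * t * x⁻¹ = s * t * s⁻¹ := by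
  set α : MulAut T := T.normalizerMonoidHom ⟨x, hxT⟩ with hα
  have hα1 : ∀ t : T, ((α t : T) : X) = x * t * x⁻¹ := fun t => rfl
  have hord : ¬ 2 ∣ orderOf α := by
    intro h1
    apply hx
    have h2 : orderOf α ∣ orderOf (⟨x, hxT⟩ : ↥(normalizer (T : Set X))) := orderOf_map_dvd _ _
    rw [Subgroup.orderOf_mk] at h2
    exact h1.trans h2
  obtain ⟨k, s, hs⟩ := hout α
  have hcop : Nat.Coprime (2 ^ k) (orderOf α) :=
    Nat.Coprime.pow_left k ((Nat.Prime.coprime_iff_not_dvd Nat.prime_two).2 hord)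
  obtain ⟨m, hm⟩ := exists_pow_eq_self_of_coprime hcop
  have h1 : α = MulAut.conj (s ^ m) := by
    rw [map_pow, ← hs, hm]
  refine ⟨(s ^ m : T), (s ^ m).2, fun t ht => ?_⟩
  rw [← hα1 ⟨t, ht⟩, h1]
  rfl

theorem Cmp.odd_mem [Finite X] (h : Cmp N C) (hc : centralizer (N : Set X) = ⊥)
    (hout : ∀ T ∈ C, ∀ α : MulAut T, ∃ (k : ℕ) (s : T), α ^ (2 ^ k) = MulAut.conj s) {x : X}
    (hx : ¬ 2 ∣ orderOf x) (hxT : ∀ T ∈ C, x ∈ normalizer (T : Set X)) : x ∈ N := by
  have key : ∀ F : Set (Subgroup X), F ⊆ C → ∃ n ∈ N, (∀ T ∈ F, ∀ t ∈ T, x * t * x⁻¹ = n * t * n⁻¹) ∧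
      (∀ T ∈ C, T ∉ F → ∀ t ∈ T, n * t = t * n) := by
    intro F hF
    have hfin : F.Finite := Set.toFinite F
    induction F, hfin using Set.Finite.induction_on with
    | empty =>
      exact ⟨1, one_mem _, fun T hT => absurd hT (Set.notMem_empty T), fun T _ _ t _ => by simp⟩
    | @insert T F hT _ ih =>
      obtain ⟨n, hn, h1, h2⟩ := ih fun S hS => hF (Set.mem_insert_of_mem _ hS)
      have hTC : T ∈ C := hF (Set.mem_insert _ _)
      obtain ⟨s, hs, hs1⟩ := exists_inner (hout T hTC) hx (hxT T hTC)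
      refine ⟨s * n, mul_mem (h.le T hTC hs) hn, ?_, ?_⟩
      · rintro S (rfl | hS) t ht
        · have h3 := h2 S hTC hT t ht
          rw [hs1 t ht]
          have h4 : s * n * t * (s * n)⁻¹ = s * (n * t) * n⁻¹ * s⁻¹ := by group
          rw [h4, h3]
          group
        · have h3 := h1 S hS t ht
          have h4 : x * t * x⁻¹ ∈ S := (mem_normalizer_iff.1 (hxT S (hF (Set.mem_insert_of_mem _ hS))) t).1 ht
          have hne : T ≠ S := by
            rintro rfl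
            exact hT hS
          have h5 := h.comm T hTC S (hF (Set.mem_insert_of_mem _ hS)) hne s hs _ h4
          have h6 : s * n * t * (s * n)⁻¹ = s * (n * t * n⁻¹) * s⁻¹ := by group
          rw [h6, ← h3, h5, mul_inv_cancel_right]
      · intro S hS hSF t ht
        rw [Set.mem_insert_iff, not_or] at hSF
        have h3 := h2 S hS hSF.2 t ht
        have h4 := h.comm T hTC S hS (fun h5 => hSF.1 h5.symm) s hs t ht
        rw [mul_assoc, h3, ← mul_assoc, h4, mul_assoc]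
  obtain ⟨n, hn, h1, -⟩ := key C le_rfl
  have h2 : n⁻¹ * x ∈ centralizer (N : Set X) := by
    apply h.mem_centralizer
    intro T hT t ht
    have h3 := h1 T hT t ht
    have h4 : x * t = n * t * n⁻¹ * x := by rw [← h3]; group
    calc n⁻¹ * x * t = n⁻¹ * (x * t) := by group
      _ = n⁻¹ * (n * t * n⁻¹ * x) := by rw [h4]
      _ = t * (n⁻¹ * x) := by group
  rw [hc, mem_bot, inv_mul_eq_one] at h2
  exact h2 ▸ hn

/-- Every component contains an involution of a given Sylow 2-subgroup. -/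
theorem Cmp.exists_inv [Finite X] (h : Cmp N C) (hT : T ∈ C) (Q : Sylow 2 N) :
    ∃ t ∈ T, t ≠ 1 ∧ t ∈ (Q : Subgroup N).map N.subtype := by
  obtain ⟨⟨t, ht⟩, ht2⟩ := exists_prime_orderOf_dvd_card' 2 (two_dvd_of_nonsol (h.nonsol hT))
  rw [Subgroup.orderOf_mk] at ht2
  have htN : t ∈ N := h.le T hT ht
  have h1 : IsPGroup 2 (zpowers (⟨t, htN⟩ : N)) := by
    rw [IsPGroup.iff_card]
    exact ⟨1, by rw [Nat.card_zpowers, Subgroup.orderOf_mk, ht2, pow_one]⟩
  obtain ⟨P, hP⟩ := h1.exists_le_sylow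
  obtain ⟨g, hg⟩ := MulAction.exists_smul_eq N P Q
  have h2 : (⟨t, htN⟩ : N) ∈ (P : Subgroup N) := hP (mem_zpowers _)
  have h3 : g * ⟨t, htN⟩ * g⁻¹ ∈ (Q : Subgroup N) := by
    rw [← hg, Sylow.coe_subgroup_smul]
    exact ⟨_, h2, rfl⟩
  refine ⟨(g : X) * t * (g : X)⁻¹, ?_, ?_, ⟨_, h3, rfl⟩⟩
  · exact (mem_normalizer_iff.1 (h.le_normalizer hT g.2) t).1 ht
  · intro h4
    have h5 : t = 1 := by
      have h6 : t = (g : X)⁻¹ * ((g : X) * t * (g : X)⁻¹) * g := by group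
      rw [h6, h4]; group
    rw [h5, orderOf_one] at ht2
    omega

/-- **`X / N` is a 2-group.** -/
theorem Cmp.pow_mem [Finite X] (h : Cmp N C) (hc : centralizer (N : Set X) = ⊥)
    (hN : ∀ H : Subgroup X, H ≠ ⊤ → N ⊔ H = ⊤ → NC H)
    (hout : ∀ T ∈ C, ∀ α : MulAut T, ∃ (k : ℕ) (s : T), α ^ (2 ^ k) = MulAut.conj s) (g : X) :
    ∃ k : ℕ, g ^ (2 ^ k) ∈ N := by
  have hn := h.normal
  obtain ⟨Q⟩ : Nonempty (Sylow 2 N) := inferInstance
  set Q' : Subgroup X := (Q : Subgroup N).map N.subtype with hQ'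
  have hQ'p : IsPGroup 2 Q' := Q.isPGroup'.map _
  have hfr : N ⊔ normalizer (Q' : Set X) = ⊤ := by
    rw [sup_comm]
    exact Sylow.normalizer_sup_eq_top Q
  have hne : normalizer (Q' : Set X) ≠ ⊤ := by
    intro h1
    have h2 : Q'.Normal := normalizer_eq_top_iff.1 h1
    obtain ⟨T, hT⟩ := h.nonempty
    obtain ⟨t, ht, ht1, htQ⟩ := h.exists_inv hT Q
    have := h.simple T hT
    have h3 : (Q'.subgroupOf T).Normal := h2.subgroupOf T
    rcases h3.eq_bot_or_eq_top with h4 | h4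
    · apply ht1
      have h5 : (⟨t, ht⟩ : T) ∈ Q'.subgroupOf T := by rw [mem_subgroupOf]; exact htQ
      rw [h4, mem_bot] at h5
      exact congrArg Subtype.val h5
    · rw [subgroupOf_eq_top] at h4
      apply h.nonsol hT
      have := (hQ'p.to_le h4).isNilpotent
      infer_instance
  have hnc := hN _ hne hfr
  have hmem : ∀ x ∈ normalizer (Q' : Set X), ¬ 2 ∣ orderOf x → x ∈ N := by
    intro x hx hxo
    have hcomm : ∀ y ∈ Q', x * y = y * x := fun y hy =>
      hnc.comm' Subgroup.le_normalizer hQ'p hx hxo (fun y hy => (mem_normalizer_iff.1 hx y).1 hy) hy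
    refine h.odd_mem hc hout hxo ?_
    intro T hT
    by_contra hcon
    obtain ⟨t, ht, ht1, htQ⟩ := h.exists_inv hT Q
    apply ht1
    refine h.disjoint (h.conj T hT x) hT ?_ (x := t) ?_ ht
    · intro h1
      exact hcon (h.mem_normalizer_of_map h1)
    · refine ⟨t, ht, ?_⟩
      change x * t * x⁻¹ = t
      rw [hcomm t htQ, mul_inv_cancel_right]
  have hg : g ∈ N ⊔ normalizer (Q' : Set X) := hfr ▸ mem_top g
  rw [mem_sup_of_normal_left] at hg
  obtain ⟨n, hn', y, hy, rfl⟩ := hg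
  obtain ⟨k, m, hm, hkm⟩ := Nat.exists_eq_two_pow_mul_odd (orderOf_pos y).ne'
  refine ⟨k, ?_⟩
  have h1 : y ^ 2 ^ k ∈ N := by
    refine hmem _ (_root_.pow_mem hy _) ?_
    rw [orderOf_pow, hkm]
    have h2 : (2 ^ k * m).gcd (2 ^ k) = 2 ^ k := Nat.gcd_eq_right (Dvd.intro m rfl)
    rw [h2, Nat.mul_div_cancel_left _ (by positivity)]
    intro h3
    exact (Nat.not_even_iff_odd.2 hm) (even_iff_two_dvd.2 h3)
  rw [← QuotientGroup.eq_one_iff] at h1 ⊢
  have h2 : (QuotientGroup.mk (n * y) : X ⧸ N) = QuotientGroup.mk y := by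
    rw [QuotientGroup.mk_mul, (QuotientGroup.eq_one_iff n).2 hn', one_mul]
  rw [QuotientGroup.mk_pow, h2, ← QuotientGroup.mk_pow]
  exact h1

end Cfsg.Agent.H584.NC
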