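import Mathlib
import Cfsg.Agent.H584.NC.StepB
import Cfsg.Agent.H584.NC.StepD
import Cfsg.Agent.H584.NC.StepE
import Cfsg.Agent.S0072

/-!
# The two cases and the conclusion (S4386)
-/

set_option autoImplicit false

namespace Cfsg.Agent.H584.NC

open Subgroup

universe u v

theorem card_dvd_of_core {X : Type u} [Group X] [Finite X] {M : Subgroup X} (hcore : M.normalCore = ⊥) :
    Nat.card X ∣ (M.index).factorial := by
  have h1 : Function.Injective (MulAction.toPermHom X (X ⧸ M)) := by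
    rw [← MonoidHom.ker_eq_bot_iff, ← hcore]
    exact M.normalCore_eq_ker.symm
  have h2 := Subgroup.card_dvd_of_injective _ h1
  rwa [Nat.card_perm] at h2

theorem not_sq_dvd_of_core {X : Type u} [Group X] [Finite X] {M : Subgroup X} (hcore : M.normalCore = ⊥)
    (hp : M.index.Prime) : ¬ M.index * M.index ∣ Nat.card X := by
  intro h1
  have h2 := h1.trans (card_dvd_of_core hcore)
  obtain ⟨k, hk⟩ : ∃ k, M.index = k + 1 := ⟨M.index - 1, by have := hp.pos; omega⟩
  rw [hk, Nat.factorial_succ] at h2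
  have h3 : (k + 1) ∣ k.factorial := Nat.dvd_of_mul_dvd_mul_left (Nat.succ_pos k) h2
  have := ((hk ▸ hp).dvd_factorial).1 h3
  omega

theorem Cmp.card_eq {X : Type u} [Group X] {N : Subgroup X} {C : Set (Subgroup X)} (h : Cmp N C) {S T : Subgroup X}
    (hS : S ∈ C) (hT : T ∈ C) : Nat.card S = Nat.card T := by
  obtain ⟨g, rfl⟩ := h.trans S hS T hT
  exact (Subgroup.card_map_of_injective (MulAut.conj g).injective).symm

theorem Cmp.equivPi {X : Type u} [Group X] [Finite X] {N : Subgroup X} {C : Set (Subgroup X)} (h : Cmp N C) :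
    Nonempty (N ≃* (∀ i : C, ↥(i : Subgroup X))) := by
  refine Lib.MinNormal.mulEquiv_pi_of_iSupIndep (fun i : C => (i : Subgroup X)) ?_ ?_ ?_
  · intro i j hij x y hx hy
    exact h.comm i i.2 j j.2 (fun h1 => hij (Subtype.ext h1)) x hx y hy
  · exact (sSupIndep_iff _).1 h.indep
  · rw [← h.sup, sSup_eq_iSup']

/-- **Step C.** -/
theorem stepC {X : Type u} [Group X] [Finite X] (hgood : Good X) {N : Subgroup X} {C : Set (Subgroup X)} (h : Cmp N C)
    (hN : N ≠ ⊥) (hmin : ∀ M : Subgroup X, M.Normal → M ≤ N → M = ⊥ ∨ M = N) (hc : centralizer (N : Set X) = ⊥)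
    {M : Subgroup X} (hM : IsCoatom M) (hsup : N ⊔ M = ⊤) (hnc : ¬ NC M) : PI N M M.index := by
  have hp : M.index.Prime := (hgood M hM).resolve_left hnc
  have hNn := h.normal
  have hcore : M.normalCore = ⊥ := by
    rcases hmin (M.normalCore ⊓ N) inferInstance inf_le_right with h1 | h1
    · rw [eq_bot_iff, ← hc]
      have h2 := commutator_le_inf M.normalCore N
      rwa [h1, le_bot_iff, commutator_eq_bot_iff_le_centralizer] at h2
    · exfalso
      apply hM.1
      rw [← hsup]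
      exact (sup_eq_right.2 ((inf_eq_right.1 h1).trans M.normalCore_le)).symm
  have hr : M.index ∣ Nat.card N := by
    rw [← relIndex_of_sup hNn hsup]
    exact relIndex_dvd_card M N
  obtain ⟨T, hT⟩ := h.nonempty
  have hCT : C = {T} := by
    apply Set.eq_singleton_iff_unique_mem.2
    refine ⟨hT, ?_⟩
    intro S hS
    by_contra hST
    apply not_sq_dvd_of_core hcore hp
    refine dvd_trans ?_ (Subgroup.card_subgroup_dvd_card N)
    obtain ⟨e⟩ := h.equivPi
    have hfin : Fintype C := Fintype.ofFinite _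
    have hcard : Nat.card N = ∏ i : C, Nat.card (i : Subgroup X) := by
      rw [Nat.card_congr e.toEquiv, Nat.card_pi]
    have hrT : M.index ∣ Nat.card T := by
      rw [hcard] at hr
      obtain ⟨i, -, hi⟩ := (hp.prime.dvd_finset_prod_iff _).1 hr
      rwa [h.card_eq i.2 hT] at hi
    classical
    rw [hcard]
    have hne : (⟨S, hS⟩ : C) ≠ ⟨T, hT⟩ := fun h1 => hST (congrArg Subtype.val h1)
    have h1 : ∏ i ∈ ({⟨S, hS⟩, ⟨T, hT⟩} : Finset C), Nat.card (i : Subgroup X) ∣ ∏ i : C, Nat.card (i : Subgroup X) :=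
      Finset.prod_dvd_prod_of_subset _ _ _ (Finset.subset_univ _)
    rw [Finset.prod_pair hne] at h1
    refine dvd_trans ?_ h1
    exact mul_dvd_mul (by rw [h.card_eq hS hT]; exact hrT) hrT
  have hNT : N = T := by
    rw [← h.sup, hCT, sSup_singleton]
  refine ⟨hNn, ?_, ?_, hc, hp, hM, hsup, rfl, hnc, fun K hK _ => hgood K hK⟩
  · rw [hNT]; exact h.simple T hT
  · rw [hNT]; exact h.nonsol hT

/-- The inputs from the classification. -/
structure Inputs : Prop where
  main : ∀ (S : Type u) [Group S] [Finite S], Loc S → IsL2 S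
  out : ∀ (S : Type u) [Group S] [Finite S], IsL2 S → ∀ α : MulAut S, ∃ (k : ℕ) (s : S), α ^ (2 ^ k) = MulAut.conj s
  pi : ∀ (G : Type u) [Group G] [Finite G] (S M : Subgroup G) (r : ℕ), PI S M r → PIConcl S

theorem Cmp.ne_top {X : Type u} [Group X] [Finite X] (hns : ¬ Group.IsSolvable X)
    (hrad : ∀ K : Subgroup X, K.Normal → Group.IsSolvable K → K = ⊥) {N : Subgroup X}
    (hNC : ∀ H : Subgroup X, H ≠ ⊤ → N ⊔ H = ⊤ → NC H) : N ≠ ⊤ := by
  intro htop
  apply not_nc_of_nonsol hns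
  rw [NC, S0072.result 2]
  intro Q hQ hQ1
  apply hNC
  · intro h1
    apply hQ1
    apply hrad Q (normalizer_eq_top_iff.1 h1)
    have := hQ.isNilpotent
    infer_instance
  · rw [htop, top_sup_eq]

theorem mem_N_of_odd {X : Type u} [Group X] [Finite X] {N : Subgroup X} (hN : N.Normal)
    (h : ∀ g : X, ∃ k : ℕ, g ^ (2 ^ k) ∈ N) {x : X} (hx : (orderOf x).Coprime 2) : x ∈ N := by
  obtain ⟨k, hk⟩ := h x
  obtain ⟨m, hm⟩ := exists_pow_eq_self_of_coprime (Nat.Coprime.pow_left k hx.symm)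
  rw [← hm]
  exact N.pow_mem hk m

/-- **The conclusion in the second case.** -/
theorem stepF {G : Type u} [Group G] [Finite G] (hin : Inputs.{u}) (T : Subgroup G) [hTn : T.Normal]
    (hns : ¬ Group.IsSolvable (G ⧸ T))
    (hrad : ∀ K : Subgroup (G ⧸ T), K.Normal → Group.IsSolvable K → K = ⊥)
    {N : Subgroup (G ⧸ T)} {C : Set (Subgroup (G ⧸ T))} (h : Cmp N C) (hN : N ≠ ⊥)
    (hmin : ∀ M : Subgroup (G ⧸ T), M.Normal → M ≤ N → M = ⊥ ∨ M = N) (hc : centralizer (N : Set (G ⧸ T)) = ⊥)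
    (hNC : ∀ H : Subgroup (G ⧸ T), H ≠ ⊤ → N ⊔ H = ⊤ → NC H) :
    Cfsg.pResidual 2 G ≠ ⊤ ∧ ∃ (k : ℕ) (F : Type) (_ : Field F) (_ : Fintype F), 1 ≤ k ∧
        ((∃ (r a : ℕ), r.Prime ∧ r ≠ 2 ∧ 1 ≤ a ∧ Fintype.card F = r ^ (2 ^ a)) ∨
         ((Fintype.card F).Prime ∧ (Fintype.card F % 8 = 1 ∨ Fintype.card F % 8 = 7))) ∧
        Nonempty (↥(Cfsg.pResidual 2 G) ⧸ T.subgroupOf (Cfsg.pResidual 2 G) ≃*
          (Fin k → Matrix.ProjectiveSpecialLinearGroup (Fin 2) F)) := by
  have hNn := h.normal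
  have hL2 : ∀ S ∈ C, IsL2 S := fun S hS => h.isL2 hNC hin.main hS
  have hout : ∀ S ∈ C, ∀ α : MulAut S, ∃ (k : ℕ) (s : S), α ^ (2 ^ k) = MulAut.conj s := fun S hS =>
    hin.out S (hL2 S hS)
  have hpow := h.pow_mem hc hNC hout
  have hPn : (Cfsg.pResidual 2 G).Normal := Transfer.NormalPComplement.pResidual_normal 2 G
  set f := QuotientGroup.mk' T with hf
  have hfs : Function.Surjective f := QuotientGroup.mk'_surjective T
  have hmap : (Cfsg.pResidual 2 G).map f = N := by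
    have h1 : (Cfsg.pResidual 2 G).map f ≤ N := by
      rw [map_le_iff_le_comap]
      unfold Cfsg.pResidual
      rw [closure_le]
      intro x hx
      change f x ∈ N
      refine mem_N_of_odd hNn hpow ?_
      exact Nat.Coprime.coprime_dvd_left (orderOf_map_dvd f x) hx
    rcases hmin _ (hPn.map f hfs) h1 with h2 | h2
    · exfalso
      apply hns
      have h3 : ∀ x : G, (orderOf x).Coprime 2 → f x = 1 := by
        intro x hx
        have h4 : f x ∈ (Cfsg.pResidual 2 G).map f := mem_map_of_mem f (subset_closure hx)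
        rw [h2, mem_bot] at h4
        exact h4
      have h4 : IsPGroup 2 (G ⧸ T) := by
        intro y
        obtain ⟨x, rfl⟩ := hfs y
        obtain ⟨k, m, hm, hkm⟩ := Nat.exists_eq_two_pow_mul_odd (orderOf_pos x).ne'
        refine ⟨k, ?_⟩
        rw [← map_pow]
        apply h3
        rw [orderOf_pow, hkm, Nat.gcd_eq_right (Dvd.intro m rfl), Nat.mul_div_cancel_left _ (by positivity)]
        exact Nat.coprime_two_right.2 hm
      have := h4.isNilpotent
      infer_instance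
    · exact h2
  refine ⟨?_, ?_⟩
  · intro h1
    apply Cmp.ne_top hns hrad hNC
    rw [← hmap, h1, ← MonoidHom.range_eq_map, MonoidHom.range_eq_top.2 hfs]
  · obtain ⟨S, hS⟩ := h.nonempty
    obtain ⟨F, i1, i2, hF, ⟨eS⟩⟩ := hL2 S hS
    obtain ⟨e⟩ := h.equivPi
    have hfin : Fintype C := Fintype.ofFinite _
    have e1 : ∀ i : C, ↥(i : Subgroup (G ⧸ T)) ≃* Matrix.ProjectiveSpecialLinearGroup (Fin 2) F := by
      intro i
      have h1 : Nonempty (↥(i : Subgroup (G ⧸ T)) ≃* S) := by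
        obtain ⟨g, hg⟩ := h.trans S hS i i.2
        exact ⟨((S.equivMapOfInjective _ (MulAut.conj g).injective).trans (MulEquiv.subgroupCongr hg.symm)).symm⟩
      exact h1.some.trans eS
    have e2 : (∀ i : C, ↥(i : Subgroup (G ⧸ T))) ≃* (C → Matrix.ProjectiveSpecialLinearGroup (Fin 2) F) :=
      MulEquiv.piCongrRight e1
    have e3 : (C → Matrix.ProjectiveSpecialLinearGroup (Fin 2) F) ≃*
        (Fin (Fintype.card C) → Matrix.ProjectiveSpecialLinearGroup (Fin 2) F) :=
      (MulEquiv.arrowCongr (Fintype.equivFin C) (MulEquiv.refl _))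
    have e4 : ↥(Cfsg.pResidual 2 G) ⧸ T.subgroupOf (Cfsg.pResidual 2 G) ≃* N := by
      have h1 : (f.comp (Cfsg.pResidual 2 G).subtype).ker = T.subgroupOf (Cfsg.pResidual 2 G) := by
        ext x
        rw [MonoidHom.mem_ker, mem_subgroupOf]
        exact QuotientGroup.eq_one_iff (x : G)
      have h2 : (f.comp (Cfsg.pResidual 2 G).subtype).range = N := by
        rw [MonoidHom.range_comp, Subgroup.range_subtype, hmap]
      exact ((QuotientGroup.quotientMulEquivOfEq h1.symm).trans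
        (QuotientGroup.quotientKerEquivRange (f.comp (Cfsg.pResidual 2 G).subtype))).trans (MulEquiv.subgroupCongr h2)
    refine ⟨Fintype.card C, F, i1, i2, ?_, hF, ⟨((e4.trans e).trans e2).trans e3⟩⟩
    have : Nonempty C := ⟨⟨S, hS⟩⟩
    exact Fintype.card_pos

/-- **The theorem, up to the inputs.** -/
theorem top {G : Type u} [Group G] [Finite G] (hin : Inputs.{u})
    (hG : ¬ Group.IsSolvable G)
    (hmax : ∀ M : Subgroup G, IsCoatom M → (∃ K : Subgroup ↥M, K.Normal ∧ ¬ 2 ∣ Nat.card K ∧ ∃ k : ℕ, K.index = 2 ^ k) ∨ (M.index).Prime)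
    (T : Subgroup G) [T.Normal] (hOT : Cfsg.oddCore G ≤ T) (hT2 : ∃ k : ℕ, (Cfsg.oddCore G).relIndex T = 2 ^ k)
    (hTmax : ∀ N : Subgroup G, N.Normal → Cfsg.oddCore G ≤ N → (∃ k : ℕ, (Cfsg.oddCore G).relIndex N = 2 ^ k) → N ≤ T) :
    (Group.IsSolvable T ∧ ∀ N : Subgroup G, N.Normal → Group.IsSolvable N → N ≤ T) ∧
    (Nonempty (G ⧸ T ≃* alternatingGroup (Fin 5)) ∨
     (∃ (F : Type) (_ : Field F) (_ : Fintype F), (Fintype.card F = 7 ∨ Fintype.card F = 11) ∧
        Nonempty (G ⧸ T ≃* Matrix.ProjectiveSpecialLinearGroup (Fin 2) F)) ∨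
     (∃ N : Subgroup (G ⧸ T), N.Normal ∧ N.index = 2 ∧ Subgroup.centralizer (N : Set (G ⧸ T)) = ⊥ ∧
        (Nonempty (N ≃* alternatingGroup (Fin 5)) ∨
         ∃ (F : Type) (_ : Field F) (_ : Fintype F), Fintype.card F = 7 ∧
           Nonempty (N ≃* Matrix.ProjectiveSpecialLinearGroup (Fin 2) F))) ∨
     (Cfsg.pResidual 2 G ≠ ⊤ ∧ ∃ (k : ℕ) (F : Type) (_ : Field F) (_ : Fintype F), 1 ≤ k ∧
        ((∃ (r a : ℕ), r.Prime ∧ r ≠ 2 ∧ 1 ≤ a ∧ Fintype.card F = r ^ (2 ^ a)) ∨
         ((Fintype.card F).Prime ∧ (Fintype.card F % 8 = 1 ∨ Fintype.card F % 8 = 7))) ∧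
        Nonempty (↥(Cfsg.pResidual 2 G) ⧸ T.subgroupOf (Cfsg.pResidual 2 G) ≃* (Fin k → Matrix.ProjectiveSpecialLinearGroup (Fin 2) F)))) := by
  have hgood : Good G := by
    intro M hM
    rcases hmax M hM with ⟨K, hK, hodd, k, hk⟩ | h1
    · left
      refine NC_iff.2 ⟨K, hK, ?_, ?_⟩
      · exact ((Nat.Prime.coprime_iff_not_dvd Nat.prime_two).2 hodd).symm
      · exact IsPGroup.of_card (n := k) hk
    · exact Or.inr h1
  obtain ⟨hTs, hrad⟩ := radical hG hgood T hOT hT2 hTmax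
  refine ⟨⟨hTs, hrad⟩, ?_⟩
  have hs := QuotientGroup.mk'_surjective T
  have hns : ¬ Group.IsSolvable (G ⧸ T) := by
    intro h1
    apply hG
    exact solvable_of_ker_le_range T.subtype (QuotientGroup.mk' T) (by rw [QuotientGroup.ker_mk', Subgroup.range_subtype])
  have hradQ : ∀ K : Subgroup (G ⧸ T), K.Normal → Group.IsSolvable K → K = ⊥ := by
    intro K hK hKs
    have h1 : Group.IsSolvable (K.comap (QuotientGroup.mk' T)) := by
      have hTle : T ≤ K.comap (QuotientGroup.mk' T) := by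
        intro t ht
        rw [mem_comap]
        have : QuotientGroup.mk' T t = 1 := (QuotientGroup.eq_one_iff t).2 ht
        rw [this]
        exact one_mem K
      refine solvable_of_ker_le_range (Subgroup.inclusion hTle) ((QuotientGroup.mk' T).subgroupComap K) ?_
      intro x hx
      have h2 : QuotientGroup.mk' T (x : G) = 1 := congrArg Subtype.val (MonoidHom.mem_ker.1 hx)
      exact ⟨⟨x, (QuotientGroup.eq_one_iff (x : G)).1 h2⟩, rfl⟩
    have h2 := hrad _ (hK.comap (QuotientGroup.mk' T)) h1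
    rw [← map_comap_eq_self_of_surjective hs K, Subgroup.map_eq_bot_iff, QuotientGroup.ker_mk']
    exact h2
  obtain ⟨N, C, hC, hN, hmin, hc⟩ := stepB (hgood.quot T) hns hradQ
  by_cases hcase : ∃ M : Subgroup (G ⧸ T), IsCoatom M ∧ N ⊔ M = ⊤ ∧ ¬ NC M
  · obtain ⟨M, hM, hsup, hnc⟩ := hcase
    have hPI := stepC (hgood.quot T) hC hN hmin hc hM hsup hnc
    rcases hin.pi _ N M _ hPI with h1 | h1 | ⟨h1, h2⟩
    · exact Or.inl h1
    · exact Or.inr (Or.inl h1)
    · exact Or.inr (Or.inr (Or.inl ⟨N, hC.normal, h1, hc, Or.inl h2⟩))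
  · push Not at hcase
    have hNC : ∀ H : Subgroup (G ⧸ T), H ≠ ⊤ → N ⊔ H = ⊤ → NC H := by
      intro H hH hsup
      obtain ⟨M, hM, hHM⟩ := (eq_top_or_exists_le_coatom H).resolve_left hH
      exact (hcase M hM (top_le_iff.1 (hsup ▸ sup_le_sup_left hHM N))).to_le hHM
    exact Or.inr (Or.inr (Or.inr (stepF hin T hns hradQ hC hN hmin hc hNC)))

end Cfsg.Agent.H584.NC
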